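import Mathlib
import Cfsg.Agent.Lib.Helper14.PG63.Defs

/-!
# PG63 [PGE]: the prime graph of a split extension by an elementary abelian 2-group
-/

set_option autoImplicit false

namespace Cfsg.Agent.Lib.Helper45.PG63

open Cfsg.Agent.Lib.Helper14.PG63

universe u v

section

variable {G : Type u} {V : Type v} [Group G] [AddCommGroup V] [DistribMulAction G V]

theorem pge_inl_sq (hV : ∀ v : V, v + v = 0) (w : Multiplicative V) :
    (SemidirectProduct.inl w : Multiplicative V ⋊[affHom G V] G) ^ 2 = 1 := by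
  rw [← map_pow, pow_two]
  have h : w * w = 1 := hV (Multiplicative.toAdd w)
  rw [h, map_one]

theorem pge_right_pow (y : Multiplicative V ⋊[affHom G V] G) (n : ℕ) :
    (y ^ n).right = y.right ^ n :=
  map_pow SemidirectProduct.rightHom y n

theorem pge_eq_inl (y : Multiplicative V ⋊[affHom G V] G) (h : y.right = 1) :
    y = SemidirectProduct.inl y.left := by
  apply SemidirectProduct.ext
  · simp
  · rw [SemidirectProduct.right_inl]; exact h

theorem pge_caseA (hV : ∀ v : V, v + v = 0) (r s : ℕ) (hr : r.Prime) (hs : s.Prime)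
    (y : Multiplicative V ⋊[affHom G V] G) (hy : orderOf y = r * s)
    (hg : y.right ^ r = 1) : s = 2 ∧ Fx G V r := by
  have hr1 : (y ^ r).right = 1 := by rw [pge_right_pow, hg]
  have hyr : y ^ r = SemidirectProduct.inl (y ^ r).left := pge_eq_inl _ hr1
  have h2 : y ^ (r * 2) = 1 := by
    rw [pow_mul, hyr]; exact pge_inl_sq hV _
  have hdvd : r * s ∣ r * 2 := by
    rw [← hy]; exact orderOf_dvd_of_pow_eq_one h2
  have hs2 : s = 2 := by
    have h : s ∣ 2 := Nat.dvd_of_mul_dvd_mul_left hr.pos hdvd
    exact (Nat.prime_dvd_prime_iff_eq hs Nat.prime_two).mp h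
  refine ⟨hs2, y.right, ?_, Multiplicative.toAdd (y ^ r).left, ?_, ?_⟩
  · have : Fact r.Prime := ⟨hr⟩
    apply orderOf_eq_prime hg
    intro h1
    have hy1 : y = SemidirectProduct.inl y.left := pge_eq_inl _ h1
    have h3 : y ^ 2 = 1 := by rw [hy1]; exact pge_inl_sq hV _
    have hd : r * s ∣ 2 := by rw [← hy]; exact orderOf_dvd_of_pow_eq_one h3
    have h4 := Nat.le_of_dvd (by norm_num) hd
    have h5 := hr.two_le
    have h6 := hs.two_le
    nlinarith
  · intro hw
    have h3 : (y ^ r).left = 1 := hw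
    have hyr1 : y ^ r = 1 := by rw [hyr, h3, map_one]
    have hd : r * s ∣ r * 1 := by
      rw [mul_one, ← hy]; exact orderOf_dvd_of_pow_eq_one hyr1
    have h4 : s ∣ 1 := Nat.dvd_of_mul_dvd_mul_left hr.pos hd
    exact hs.one_lt.ne' (Nat.dvd_one.mp h4)
  · have hc : y * y ^ r = y ^ r * y := by rw [← pow_succ', ← pow_succ]
    have hl := congrArg SemidirectProduct.left hc
    rw [SemidirectProduct.mul_left, SemidirectProduct.mul_left, hr1, map_one, MulAut.one_apply,
      mul_comm (y ^ r).left y.left] at hl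
    have h3 := mul_left_cancel hl
    rw [affHom_apply] at h3
    exact h3

theorem pge_mk (hV : ∀ v : V, v + v = 0) (r : ℕ) (hr : r.Prime) (hr2 : r ≠ 2) (h : Fx G V r) :
    ∃ y : Multiplicative V ⋊[affHom G V] G, orderOf y = r * 2 := by
  obtain ⟨g, hg, v, hv, hgv⟩ := h
  refine ⟨SemidirectProduct.inr g * SemidirectProduct.inl (Multiplicative.ofAdd v), ?_⟩
  have hc : Commute (SemidirectProduct.inr g : Multiplicative V ⋊[affHom G V] G)
      (SemidirectProduct.inl (Multiplicative.ofAdd v)) := by
    apply SemidirectProduct.ext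
    · simp [affHom_apply, hgv]
    · simp
  have ho1 : orderOf (SemidirectProduct.inr g : Multiplicative V ⋊[affHom G V] G) = r := by
    rw [orderOf_injective _ SemidirectProduct.inr_injective, hg]
  have ho2 : orderOf (SemidirectProduct.inl (Multiplicative.ofAdd v) :
      Multiplicative V ⋊[affHom G V] G) = 2 := by
    have : Fact (Nat.Prime 2) := ⟨Nat.prime_two⟩
    apply orderOf_eq_prime (pge_inl_sq hV _)
    intro h1
    have h2 : Multiplicative.ofAdd v = 1 :=
      SemidirectProduct.inl_injective (by rw [h1, map_one])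
    exact hv h2
  rw [hc.orderOf_mul_eq_mul_orderOf_of_coprime, ho1, ho2]
  rw [ho1, ho2]
  exact (Nat.coprime_primes hr Nat.prime_two).mpr hr2

end

/-- **[PGE]** the prime graph of a split extension by an elementary abelian 2-group. -/
theorem pkgPgExt : PkgPgExt.{u} := by
  intro G V _ _ _ hV r s hr hs hrs
  constructor
  · rintro ⟨y, hy⟩
    by_cases hgr : y.right ^ r = 1
    · exact Or.inr (Or.inl (pge_caseA hV r s hr hs y hy hgr))
    by_cases hgs : y.right ^ s = 1
    · exact Or.inr (Or.inr (pge_caseA hV s r hs hr y (by rw [hy, mul_comm]) hgs))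
    left
    refine ⟨y.right, ?_⟩
    have hd : orderOf y.right ∣ r * s := by
      rw [← hy]; exact orderOf_map_dvd SemidirectProduct.rightHom y
    have h1 : r ∣ orderOf y.right := by
      by_contra hnd
      have hco : Nat.Coprime (orderOf y.right) r :=
        Nat.Coprime.symm ((Nat.Prime.coprime_iff_not_dvd hr).mpr hnd)
      have h3 : orderOf y.right ∣ s := hco.dvd_of_dvd_mul_left hd
      exact hgs (orderOf_dvd_iff_pow_eq_one.mp h3)
    have h2 : s ∣ orderOf y.right := by
      by_contra hnd
      have hco : Nat.Coprime (orderOf y.right) s :=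
        Nat.Coprime.symm ((Nat.Prime.coprime_iff_not_dvd hs).mpr hnd)
      have h3 : orderOf y.right ∣ r := hco.dvd_of_dvd_mul_right hd
      exact hgr (orderOf_dvd_iff_pow_eq_one.mp h3)
    exact Nat.dvd_antisymm hd
      (Nat.Coprime.mul_dvd_of_dvd_of_dvd ((Nat.coprime_primes hr hs).mpr hrs) h1 h2)
  · rintro (⟨x, hx⟩ | ⟨hs2, hF⟩ | ⟨hr2, hF⟩)
    · exact ⟨SemidirectProduct.inr x,
        by rw [orderOf_injective _ SemidirectProduct.inr_injective, hx]⟩
    · subst hs2
      exact pge_mk hV r hr hrs hF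
    · subst hr2
      obtain ⟨y, hy⟩ := pge_mk hV s hs hrs.symm hF
      exact ⟨y, by rw [hy, mul_comm]⟩

end Cfsg.Agent.Lib.Helper45.PG63
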